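import Cfsg.Agent.QT.Cyc4
import Cfsg.Agent.QT.Lift
import Cfsg.Agent.Chev.TwistE6

/-!
# Groups of Lie type in characteristic two with `3`-rank at least three
-/

set_option autoImplicit false

namespace Cfsg.Lib.QET.KclA

open Subgroup Matrix Chev Chev.Core Cfsg.Lie Cfsg.Lib.Class Cfsg.Lib.Class.Orth QuadraticMap
open Cfsg.Lib.QT

variable {G H : Type*} [Group G] [Group H]

theorem dvd_of_inv {x w g : G} (hx : x ^ 3 = 1) (x1 : x ≠ 1) (hg : g * x * g⁻¹ = x⁻¹)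
    (c : Commute g w) {i : ℤ} (e : x ^ i * w = 1) : (3 : ℤ) ∣ i ∧ x ^ i = 1 := by
  have : Fact (Nat.Prime 3) := ⟨Nat.prime_three⟩
  have e1 : (x ^ i)⁻¹ * w = 1 := by
    calc _ = g * (x ^ i * w) * g⁻¹ := by
          rw [← _root_.inv_zpow, ← hg, conj_zpow, mul_assoc, c.inv_left.eq]; group
      _ = 1 := by rw [e]; group
  have e2 : x ^ (i + i) = 1 := by
    rw [_root_.zpow_add, ← eq_inv_iff_mul_eq_one]; exact mul_right_cancel (e.trans e1.symm)
  have h3 : ((3 : ℕ) : ℤ) ∣ i + i := dvd_of_zpow_eq_one hx x1 e2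
  obtain ⟨k, rfl⟩ : (3 : ℤ) ∣ i := by omega
  exact ⟨Dvd.intro _ rfl, by rw [_root_.zpow_mul, show x ^ (3 : ℤ) = 1 from by exact_mod_cast hx,
    _root_.one_zpow]⟩

theorem r3 [Finite G] {x y z g h : G} (hx : x ^ 3 = 1) (hy : y ^ 3 = 1) (hz : z ^ 3 = 1)
    (x1 : x ≠ 1) (y1 : y ≠ 1) (z1 : z ≠ 1) (xy : Commute x y) (xz : Commute x z) (yz : Commute y z)
    (gx : g * x * g⁻¹ = x⁻¹) (hy' : h * y * h⁻¹ = y⁻¹) (gy : Commute g y) (gz : Commute g z)
    (hz' : Commute h z) {K : Subgroup G} (mx : x ∈ K) (my : y ∈ K) (mz : z ∈ K) :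
    ¬ PRankLE 3 2 K := fun hK => by
  have : Fact (Nat.Prime 3) := ⟨Nat.prime_three⟩
  have h1 := cube_le_card_closure (p := 3) xy xz yz fun i j k e => by
    rw [mul_assoc] at e
    obtain ⟨a, e1⟩ := dvd_of_inv hx x1 gx ((gy.zpow_right j).mul_right (gz.zpow_right k)) e
    rw [e1, one_mul] at e
    obtain ⟨b, e2⟩ := dvd_of_inv hy y1 hy' (hz'.zpow_right k) e
    rw [e2, one_mul] at e
    exact ⟨a, b, dvd_of_zpow_eq_one hz z1 e⟩
  have ea := isElementaryAbelian_closure (p := 3) (S := {x, y, z})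
    (by rintro _ (rfl | rfl | rfl) <;> assumption)
    (by
      rintro _ (rfl | rfl | rfl) _ (rfl | rfl | rfl)
      exacts [.refl _, xy, xz, xy.symm, .refl _, yz, xz.symm, yz.symm, .refl _])
  have le : closure {x, y, z} ≤ K := (closure_le _).2 (by rintro _ (rfl | rfl | rfl) <;> assumption)
  have h2 := hK ((closure {x, y, z}).subgroupOf K) ⟨⟨fun a b => Subtype.ext (Subtype.ext (by
    have := congrArg Subtype.val (ea.1.1.1 ⟨_, a.2⟩ ⟨_, b.2⟩)
    exact this))⟩⟩ fun a ha => Subtype.ext (ea.2 _ ha)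
  rw [Nat.card_congr (subgroupOfEquivOfLe le).toEquiv] at h2
  omega

theorem br_inv {u v : G} (h : Br u v) : u * (u * v) * u⁻¹ = (u * v)⁻¹ := by
  rw [← mul_assoc, h.uu, one_mul, _root_.mul_inv_rev, inv_eq_of_mul_eq_one_right h.vv]

theorem br_ne {u v : G} (h : Br u v) : u * v ≠ 1 := fun e => h.not_commute (by rw [e]; simp)

theorem br3 [Finite G] {a b c d e f : G} (h1 : Br a b) (h2 : Br c d) (h3 : Br e f)
    (c1 : Cm a b c d) (c2 : Cm a b e f) (c3 : Cm c d e f) {K : Subgroup G} (m1 : a * b ∈ K)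
    (m2 : c * d ∈ K) (m3 : e * f ∈ K) : ¬ PRankLE 3 2 K :=
  have k : ∀ {a b c d : G}, Cm a b c d → Commute (a * b) (c * d) := fun h =>
    (h.1.mul_right h.2.1).mul_left (h.2.2.1.mul_right h.2.2.2)
  r3 h1.cube h2.cube h3.cube (br_ne h1) (br_ne h2) (br_ne h3) (k c1) (k c2) (k c3) (br_inv h1)
    (br_inv h2) (c1.1.mul_right c1.2.1) (c2.1.mul_right c2.2.1) (c3.1.mul_right c3.2.1) m1 m2 m3

theorem r3_map [Finite G] (f : H →* G) (hf : f.ker ≤ center H) {x y z g h k : H} (hx : x ^ 3 = 1)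
    (hy : y ^ 3 = 1) (hz : z ^ 3 = 1) (x1 : x ≠ 1) (y1 : y ≠ 1) (z1 : z ≠ 1) (xy : Commute x y)
    (xz : Commute x z) (yz : Commute y z) (gx : g * x * g⁻¹ = x⁻¹) (hy' : h * y * h⁻¹ = y⁻¹)
    (kz : k * z * k⁻¹ = z⁻¹) (gy : Commute g y) (gz : Commute g z) (hz' : Commute h z) :
    ¬ PRankLE 3 2 G := fun hG => by
  have n : ∀ {x g : H}, x ^ 3 = 1 → x ≠ 1 → g * x * g⁻¹ = x⁻¹ → f x ≠ 1 := by
    intro x g hx x1 gx e
    rw [mem_center_iff.1 (hf e) g, mul_inv_cancel_right, eq_inv_iff_mul_eq_one] at gx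
    exact x1 (by rwa [pow_succ, _root_.sq, gx, one_mul] at hx)
  have p : ∀ {x : H}, x ^ 3 = 1 → f x ^ 3 = 1 := fun h => by rw [← map_pow, h, map_one]
  have q : ∀ {x g : H}, g * x * g⁻¹ = x⁻¹ → f g * f x * (f g)⁻¹ = (f x)⁻¹ := fun h => by
    simpa using congrArg f h
  exact r3 (p hx) (p hy) (p hz) (n hx x1 gx) (n hy y1 hy') (n hz z1 kz) (xy.map f) (xz.map f)
    (yz.map f) (q gx) (q hy') (gy.map f) (gz.map f) (hz'.map f) (mem_top _) (mem_top _) (mem_top _)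
    (FT.pRankLE_top_iff.2 hG)

variable {F : Type*} [Field F] [CharP F 2]

theorem f4 [Finite F] : ¬ PRankLE 3 2 (chevF4.group F) :=
  br3 (br_root certF4 rootF4 (r := 0) (by decide)) (br_root certF4 rootF4 (r := 6) (by decide))
    (br_root certF4 rootF4 (r := 17) (by decide)) (cm_root certF4 rootF4 (by decide +kernel))
    (cm_root certF4 rootF4 (by decide +kernel)) (cm_root certF4 rootF4 (by decide +kernel))
    (mul_mem (xGL_mem_group _ _) (xGL_mem_group _ _)) (mul_mem (xGL_mem_group _ _) (xGL_mem_group _ _))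
    (mul_mem (xGL_mem_group _ _) (xGL_mem_group _ _))

theorem e6 [Fintype F] {q : ℕ} (hF : Fintype.card F = q ^ 2) : ¬ PRankLE 3 2 (twistedE6 F q) := by
  have c := fun {r s} => cm_root (F := F) (r := r) (s := s) certE6 rootE6
  have m : ∀ w ∈ e6Words F q, word (xGL chevE6 F) w ∈ twistedE6 F q := fun w hw => by
    rw [twistedE6, certE6.genSubgroup_eq (R := rootE6)]; exact subset_closure ⟨w, hw, rfl⟩
  obtain ⟨f, hf, -, e⟩ := exists_twE6 hF
  refine br3 (br_root certE6 rootE6 (r := 69) (by decide))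
    (br_root certE6 rootE6 (r := 46) (by decide))
    (br_mul certE6 rootE6 (br_root certE6 rootE6 (r := 56) (by decide)) (s := 36) (by decide)
      (c (by decide +kernel))) (c (by decide +kernel))
    ((c (by decide +kernel)).mul (c (by decide +kernel)))
    ((c (by decide +kernel)).mul (c (by decide +kernel)))
    (e ▸ mul_mem (x_mem_twE6 f hf (by decide +kernel) (map_one f))
      (x_mem_twE6 f hf (by decide +kernel) (map_one f))) (mul_mem ?_ ?_) (mul_mem ?_ ?_)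
  · simpa [word] using m [(46, 1)] (.inl ⟨1, one_pow q, 46, by decide, rfl⟩)
  · simpa [word] using m [(chevE6.neg 46, 1)] (.inl ⟨1, one_pow q, _, by decide +kernel, rfl⟩)
  · simpa [word] using m [(56, 1), (36, 1 ^ q)] (.inr ⟨1, (56, 36), by decide, rfl⟩)
  · simpa [word] using m [(chevE6.neg 56, 1), (chevE6.neg 36, 1 ^ q)]
      (.inr ⟨1, (chevE6.neg 56, chevE6.neg 36), by decide +kernel, rfl⟩)

theorem sp [Finite F] : ¬ PRankLE 3 2 (PSp 3 F) := fun hG => by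
  have hρ : Function.Injective (spMat 3 F) := Subtype.val_injective
  have e3 := (stA_slE (F := F) (κ := Fin 3 ⊕ Fin 3)).commute
  have b : ∀ i : Fin 3, Br (spL (.inl i) (1 : F)) (spL (.inr i) 1) := fun i =>
    have h := br_slE (F := F) (a := Sum.inl i) (b := Sum.inr i) (c := Sum.inr (i + 1)) (by simp)
      (by simp) (by simp)
    ⟨hρ (by rw [map_mul, spMat_spL, map_one]; exact congrArg Subtype.val h.uu),
      hρ (by rw [map_mul, spMat_spL, map_one]; exact congrArg Subtype.val h.vv),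
      hρ (by simp only [map_mul, spMat_spL]; exact congrArg Subtype.val h.br),
      fun e => h.ne (Subtype.ext ((spMat_spL _ _).symm.trans
        ((congrArg (spMat 3 F) e).trans (spMat_spL _ _))))⟩
  have c : ∀ i k : Fin 3, i ≠ k → Cm (spL (.inl i) (1 : F)) (spL (.inr i) 1) (spL (.inl k) (1 : F))
      (spL (.inr k) 1) := fun i k h => by
    refine ⟨hρ ?_, hρ ?_, hρ ?_, hρ ?_⟩ <;> simp only [map_mul, spMat_spL] <;>
      refine congrArg Subtype.val (e3 _ _ _ _ ?_ ?_ ?_ ?_ 1 1) <;> simp [h]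
  have m : ∀ {a b c d : Matrix.symplecticGroup (Fin 3) F}, Cm a b c d →
      Cm (QuotientGroup.mk' (center _) a) (QuotientGroup.mk' (center _) b)
        (QuotientGroup.mk' (center _) c) (QuotientGroup.mk' (center _) d) := fun h =>
    ⟨h.1.map _, h.2.1.map _, h.2.2.1.map _, h.2.2.2.map _⟩
  exact br3 ((b 0).map _ (QuotientGroup.ker_mk' _).le) ((b 1).map _ (QuotientGroup.ker_mk' _).le)
    ((b 2).map _ (QuotientGroup.ker_mk' _).le) (m (c 0 1 (by decide))) (m (c 0 2 (by decide)))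
    (m (c 1 2 (by decide))) (mem_top _) (mem_top _) (mem_top _) (FT.pRankLE_top_iff.2 hG)

omit [CharP F 2] in
theorem mono [Finite G] {n : ℕ} (ρ : H →* Matrix (Fin (n + 4)) (Fin (n + 4)) F)
    (hρ : Function.Injective ρ) (f : H →* G) (hf : f.ker ≤ center H) {x : F} (hx : x ^ 3 = 1)
    (x1 : x ≠ 1)
    (hd : ∀ d : Fin (n + 4) → F, (∀ i, d i ^ 3 = 1) → ∏ i, d i = 1 → ∃ h, ρ h = diagonal d)
    (hp : ∀ σ : Equiv.Perm (Fin (n + 4)), ∃ h, ρ h = σ.permMatrix F) : ¬ PRankLE 3 2 G := by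
  choose π hπ using hp
  have h2 : (x ^ 2) ^ 3 = 1 := by rw [← pow_mul, mul_comm, pow_mul, hx, one_pow]
  have h3 : x * x ^ 2 = 1 := by rw [← pow_succ', hx]
  have h4 : x ^ 2 * x = 1 := by rw [← pow_succ, hx]
  let δ : F → F → F → F → Fin (n + 4) → F := fun a b c d =>
    Fin.cons a (Fin.cons b (Fin.cons c (Fin.cons d fun _ => 1)))
  have ex : ∀ a b c d : F, a ^ 3 = 1 → b ^ 3 = 1 → c ^ 3 = 1 → d ^ 3 = 1 → a * (b * (c * d)) = 1 →
      a ≠ 1 ∨ c ≠ 1 → ∃ h, h ^ 3 = 1 ∧ h ≠ 1 ∧ ρ h = diagonal (δ a b c d) := by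
    intro a b c d ha hb hc hd' e ne
    have h3 : ∀ i, δ a b c d i ^ 3 = 1 :=
      Fin.cases ha (Fin.cases hb (Fin.cases hc (Fin.cases hd' fun _ => one_pow 3)))
    obtain ⟨h, e'⟩ := hd _ h3 (by simpa [δ, Fin.prod_univ_succ] using e)
    refine ⟨h, hρ (by
      rw [map_pow, e', diagonal_pow, map_one, ← diagonal_one]; exact congrArg _ (funext h3)),
      fun e1 => ?_, e'⟩
    rw [e1, map_one, ← diagonal_one] at e'
    have e2 := diagonal_injective e'
    exact ne.elim (fun k => k (congrFun e2 0).symm) fun k => k (congrFun e2 2).symm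
  obtain ⟨a, a3, a1, ha⟩ := ex x (x ^ 2) 1 1 hx h2 (by simp) (by simp) (by simpa using h3) (.inl x1)
  obtain ⟨b, b3, b1, hb⟩ := ex 1 1 x (x ^ 2) (by simp) (by simp) hx h2 (by simpa using h3) (.inr x1)
  obtain ⟨c, c3, c1, hc⟩ := ex x x (x ^ 2) (x ^ 2) hx hx h2 h2
    (by rw [← mul_assoc x (x ^ 2), h3, one_mul, h3]) (.inl x1)
  have cm : ∀ {a b : H} {d e}, ρ a = diagonal d → ρ b = diagonal e → Commute a b := fun ha hb =>
    hρ (by simp only [map_mul, ha, hb, diagonal_mul_diagonal, mul_comm])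
  have iv : ∀ {a : H} {d} (σ), ρ a = diagonal d → (∀ i, d i * d (σ i) = 1) →
      π σ * a * (π σ)⁻¹ = a⁻¹ := fun {a d} σ ha e => by
    rw [mul_inv_eq_iff_eq_mul, eq_inv_mul_iff_mul_eq]
    refine hρ ?_
    rw [map_mul, map_mul, ha, hπ, perm_conj, ← Matrix.mul_assoc, diagonal_mul_diagonal,
      show (fun i => d i * (d ∘ σ) i) = fun _ => 1 from funext e, diagonal_one, Matrix.one_mul]
  have cp : ∀ {a : H} {d} (σ), ρ a = diagonal d → (∀ i, d (σ i) = d i) → Commute (π σ) a :=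
    fun {a d} σ ha e => hρ (by
      rw [map_mul, map_mul, ha, hπ, perm_conj, show d ∘ σ = d from funext e])
  have t : ∀ (P : Fin (n + 4) → Prop), P 0 → P 1 → P 2 → P 3 →
      (∀ i : Fin n, P i.succ.succ.succ.succ) → ∀ i, P i := fun P p0 p1 p2 p3 p =>
    Fin.cases p0 (Fin.cases p1 (Fin.cases p2 (Fin.cases p3 p)))
  refine r3_map f hf a3 b3 c3 a1 b1 c1 (cm ha hb) (cm ha hc) (cm hb hc)
    (iv (Equiv.swap 0 1) ha ?_) (iv (Equiv.swap 2 3) hb ?_)
    (iv (Equiv.swap 0 2 * Equiv.swap 1 3) hc ?_) (cp _ hb ?_) (cp _ hc ?_) (cp _ hc ?_) <;>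
  refine t _ ?_ ?_ ?_ ?_ fun i => ?_ <;>
  first | exact h3 | exact h4 | exact mul_one 1 | rfl

theorem su [Fintype F] {n : ℕ} (hF : Fintype.card F = 2 ^ 2) : ¬ PRankLE 3 2 (PSU (n + 4) F 2) := by
  obtain ⟨r, hr, -, hk, x, hx, x1⟩ := exists_root (F := F) (n := 3) (by decide) (by decide)
    (by rw [hF]; rfl)
  obtain rfl := (Nat.prime_dvd_prime_iff_eq hr Nat.prime_three).1 hk
  refine mono ((slMat _ F).comp (SU _ F 2).subtype)
    (Subtype.val_injective.comp Subtype.val_injective) _ (QuotientGroup.ker_mk' _).le hx x1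
    (fun d h hd => ⟨⟨⟨diagonal d, by rwa [det_diagonal]⟩, fun u v => ?_⟩, rfl⟩)
    fun σ => ⟨⟨⟨_, det_perm σ⟩, fun u v => ?_⟩, rfl⟩
  · refine Finset.sum_congr rfl fun i _ => ?_
    change (diagonal d *ᵥ u) i * (diagonal d *ᵥ v) i ^ 2 = _
    rw [mulVec_diagonal, mulVec_diagonal, mul_pow, mul_mul_mul_comm, ← pow_succ', h, one_mul]
  · change ∑ i, (σ.permMatrix F *ᵥ u) i * (σ.permMatrix F *ᵥ v) i ^ 2 = _
    rw [permMatrix_mulVec, permMatrix_mulVec]
    exact Equiv.sum_comp σ fun i => u i * v i ^ 2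

theorem om [Finite F] : ¬ PRankLE 3 2 (POmega F (quadFormPlus 4 F)) := fun h => by
  rw [← coe_quadPlus] at h
  have : Finite (O (quadPlus 4 F)) := Finite.of_injective _ oMat_injective
  have hQ := quadPlus_nondegenerate (F := F) 4
  refine br3 (a := refl (quadPlus 4 F) (Sum.elim ![1, 0, 0, 0] ![1, 0, 0, 0]))
    (b := refl (quadPlus 4 F) (Sum.elim ![1, 1, 0, 0] ![0, 1, 0, 0]))
    (c := refl (quadPlus 4 F) (Sum.elim ![0, 1, 0, 0] ![0, 1, 0, 0]))
    (d := refl (quadPlus 4 F) (Sum.elim ![1, 1, 0, 0] ![1, 0, 0, 0]))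
    (e := refl (quadPlus 4 F) (Sum.elim ![0, 0, 1, 0] ![0, 0, 1, 0]))
    (f := refl (quadPlus 4 F) (Sum.elim ![0, 0, 1, 1] ![0, 0, 0, 1]))
    ?b1 ?b2 ?b3 ⟨commute_refl ?_, commute_refl ?_, commute_refl ?_, commute_refl ?_⟩
    ⟨commute_refl ?_, commute_refl ?_, commute_refl ?_, commute_refl ?_⟩
    ⟨commute_refl ?_, commute_refl ?_, commute_refl ?_, commute_refl ?_⟩
    (Br.mem_commutator ?b1) (Br.mem_commutator ?b2) (Br.mem_commutator ?b3)
    (FT.BG4.pRankLE_of_injective ((FT.BG4.pRankLE_congr (pomegaEquiv _)).1 h)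
      (QuotientGroup.mk' _) ?inj)
  case inj =>
    rw [← MonoidHom.ker_eq_bot_iff, QuotientGroup.ker_mk']
    exact center_commutator_eq_bot hQ (not_exc_of_finrank (by simp)) (by simp)
      (.inl CharTwo.two_eq_zero)
  case b1 => refine br_refl (c := Pi.single (.inl 1) 1) ?_ ?_ ?_ ?_ ?_ <;>
    simp [coe_quadPlus, polar_quadFormPlus, quadFormPlus, Fin.sum_univ_four]
  case b2 => refine br_refl (c := Pi.single (.inl 0) 1) ?_ ?_ ?_ ?_ ?_ <;>
    simp [coe_quadPlus, polar_quadFormPlus, quadFormPlus, Fin.sum_univ_four]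
  case b3 => refine br_refl (c := Pi.single (.inl 3) 1) ?_ ?_ ?_ ?_ ?_ <;>
    simp [coe_quadPlus, polar_quadFormPlus, quadFormPlus, Fin.sum_univ_four]
  all_goals simp [coe_quadPlus, polar_quadFormPlus, Fin.sum_univ_four, CharTwo.add_self_eq_zero]

end Cfsg.Lib.QET.KclA
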